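import Cfsg.Agent.H802.FusNorm
import Cfsg.Agent.H752.Mp
set_option linter.all false

/-! # Automorphisms acting trivially on an invariant subset: inner up to an odd power (helper780) -/
set_option autoImplicit false

namespace Cfsg.Agent.H780
open Cfsg Cfsg.FusionSystem Cfsg.Agent.H752

variable {Ω : Type*} [Group Ω] {S : Subgroup Ω}

/-- Let `Q ⊴ S` and let `V ⊆ Q` be invariant under `Aut_F(Q)`, with `C_S(V) ≤ Q`. An automorphism of `Q` in `F` which is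
trivial on `V` has an odd power which is inner. -/
theorem inner_of_fix [Finite S] (hS : IsPGroup 2 S) {F : FusionSystem S} (hF : F.IsSaturated 2) {Q : Subgroup Ω}
    (hQS : Q ≤ S) (hQn : ∀ s ∈ S, ∀ x ∈ Q, s * x * s⁻¹ ∈ Q) (V : Set Ω)
    (hV : ∀ α ∈ F.autGroup Q, ∀ v : Q, (v : Ω) ∈ V → ((α v : Q) : Ω) ∈ V)
    (hc : ∀ s ∈ S, (∀ v ∈ V, s * v * s⁻¹ = v) → s ∈ Q) (hVQ : ∀ v ∈ V, v ∈ Q)
    {τ : MulAut Q} (hτ : τ ∈ F.autGroup Q) (hfix : ∀ v : Q, (v : Ω) ∈ V → τ v = v) :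
    ∃ n : ℕ, Odd n ∧ ∃ s ∈ Q, ∀ x : Q, (((τ ^ n) x : Q) : Ω) = s * x * s⁻¹ := by
  classical
  have hfinQ : Finite Q := H802.finite_of_le hQS
  have hfinM : Finite (MulAut Q) := Finite.of_injective (fun α : MulAut Q => (α : Q → Q)) (fun a b h => by
    ext x; exact congrArg Subtype.val (congrFun h x))
  have hN : normalizerIn S Q = S := by
    refine le_antisymm inf_le_left fun s hs => ⟨hs, Subgroup.mem_normalizer_iff.2 fun x => ⟨fun hx => hQn s hs x hx, fun hx => ?_⟩⟩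
    have := hQn s⁻¹ (inv_mem hs) _ hx
    simpa [mul_assoc] using this
  have hfn : F.IsFullyNormalized Q := by
    refine ⟨hQS, fun P hP => ?_⟩
    rw [hN]
    exact Nat.card_le_card_of_injective _ (Subgroup.inclusion_injective (inf_le_left : normalizerIn S P ≤ S))
  obtain ⟨-, R, hR⟩ := H802.isFullyAutomized_of_isFullyNormalized hS hF hfn
  -- the odd part
  let g : F.autGroup Q := ⟨τ, hτ⟩
  have hpos : orderOf g ≠ 0 := (orderOf_pos g).ne'
  obtain ⟨k, n, hn, hkn⟩ := Nat.exists_eq_two_pow_mul_odd hpos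
  have hg : (g ^ n) ^ 2 ^ k = 1 := by rw [← pow_mul, mul_comm, ← hkn, pow_orderOf_eq_one]
  have h2 : IsPGroup 2 (Subgroup.zpowers (g ^ n)) := by
    rintro ⟨x, i, rfl⟩
    refine ⟨k, Subtype.ext ?_⟩
    show ((g ^ n) ^ i) ^ 2 ^ k = 1
    rw [← zpow_natCast, ← zpow_mul, mul_comm, zpow_mul, zpow_natCast, hg, one_zpow]
  obtain ⟨P, hP⟩ := h2.exists_le_sylow
  obtain ⟨α, hα⟩ := MulAction.exists_smul_eq (F.autGroup Q) P R
  have h3 : α * g ^ n * α⁻¹ ∈ (R : Subgroup (F.autGroup Q)) := by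
    rw [← hα]
    have h4 : g ^ n ∈ (P : Subgroup (F.autGroup Q)) := hP (Subgroup.mem_zpowers _)
    exact Subgroup.smul_mem_pointwise_smul (g ^ n) (MulAut.conj α) (P : Subgroup (F.autGroup Q)) h4
  rw [hR, Subgroup.mem_subgroupOf] at h3
  obtain ⟨s, hs, h5⟩ := (H802.mem_autInducedBy_iff _ _ _).1 h3
  -- `g ^ n` is trivial on `V`
  have hfixn : ∀ (i : ℕ) (v : Q), (v : Ω) ∈ V → (τ ^ i) v = v := by
    intro i
    induction i with
    | zero => intro v _; rfl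
    | succ i ih => intro v hv; rw [pow_succ, MulAut.mul_apply, hfix v hv, ih v hv]
  have h6 : s ∈ Q := by
    refine hc s hs fun v hv => ?_
    have hα' : ((α : MulAut Q)⁻¹) ∈ F.autGroup Q := inv_mem α.2
    have h7 := h5 ⟨v, hVQ v hv⟩
    have h8 : ((α : MulAut Q) * τ ^ n * (α : MulAut Q)⁻¹) ⟨v, hVQ v hv⟩ = ⟨v, hVQ v hv⟩ := by
      rw [MulAut.mul_apply, MulAut.mul_apply, hfixn n _ (hV _ hα' ⟨v, hVQ v hv⟩ hv), MulAut.apply_inv_self]
    have h9 : ((α * g ^ n * α⁻¹ : F.autGroup Q) : MulAut Q) = (α : MulAut Q) * τ ^ n * (α : MulAut Q)⁻¹ := rfl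
    rw [h9, h8] at h7
    exact h7.symm
  refine ⟨n, hn, ((α : MulAut Q)⁻¹ ⟨s, h6⟩ : Q), Subtype.mem _, fun x => ?_⟩
  have h9 : ((α * g ^ n * α⁻¹ : F.autGroup Q) : MulAut Q) = (α : MulAut Q) * τ ^ n * (α : MulAut Q)⁻¹ := rfl
  rw [h9] at h5
  have h10 : ((α : MulAut Q) * τ ^ n * (α : MulAut Q)⁻¹) ((α : MulAut Q) x) = ⟨s, h6⟩ * (α : MulAut Q) x * ⟨s, h6⟩⁻¹ :=
    Subtype.ext (h5 _)
  rw [MulAut.mul_apply, MulAut.mul_apply, MulAut.inv_apply_self] at h10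
  have h11 := congrArg (fun y => (α : MulAut Q)⁻¹ y) h10
  simp only [MulAut.inv_apply_self, map_mul, map_inv] at h11
  exact congrArg Subtype.val h11

end Cfsg.Agent.H780
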